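import Cfsg.Agent.H437.Win.CoreN

/-!
# Bounds for the special values; the small fields
-/

set_option autoImplicit false

namespace Cfsg.Agent.H437.Win

variable {p q n R w : ℕ}

namespace Ctx

variable (h : Ctx p q n R w)

include h

/-- negative special values are small -/
theorem neg_bound {E : ℕ} (hS : Spec p q n (w * ((E : ℤ) - R))) (hE : E < R) : 9 * ((R : ℤ) - E) ≤ R := by
  have hw := h.wpos
  obtain ⟨b, -, -, hb, -, h1⟩ := hS.neg_size h.num (mul_nonpos_of_nonneg_of_nonpos hw.le (by omega))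
  have h2 := zpow_nine h.num (i := b) (j := n) hb
  have h3 := h.hRZ
  have h4 : (w : ℤ) * (9 * ((R : ℤ) - E)) ≤ w * R := by linarith
  exact le_of_mul_le_mul_left h4 hw

theorem neg_bound5 (hq : q ≠ 3) {E : ℕ} (hS : Spec p q n (w * ((E : ℤ) - R))) (hE : E < R) :
    25 * ((R : ℤ) - E) ≤ R := by
  have hw := h.wpos
  have h5 : (5 : ℤ) ≤ q := by
    rcases h.num.q35 with h1 | h1
    · exact absurd h1 hq
    · exact_mod_cast h1
  obtain ⟨b, -, -, hb, -, h1⟩ := hS.neg_size h.num (mul_nonpos_of_nonneg_of_nonpos hw.le (by omega))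
  have h2 : 25 * (q : ℤ) ^ b ≤ (q : ℤ) ^ n := by
    calc 25 * (q : ℤ) ^ b = 5 ^ 2 * (q : ℤ) ^ b := by norm_num
      _ ≤ (q : ℤ) ^ 2 * (q : ℤ) ^ b :=
        mul_le_mul_of_nonneg_right (pow_le_pow_left₀ (by norm_num) h5 2) (by positivity)
      _ = (q : ℤ) ^ (2 + b) := by ring
      _ ≤ _ := zpow_mono h.num (by omega)
  have h3 := h.hRZ
  have h4 : (w : ℤ) * (25 * ((R : ℤ) - E)) ≤ w * R := by linarith
  exact le_of_mul_le_mul_left h4 hw

/-- the positive special values in the form `Q X` -/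
theorem pos_form {E : ℕ} (hS : Spec p q n (w * ((E : ℤ) - R))) (hE : R < E) :
    (∃ b : ℕ, 1 ≤ b ∧ ((q : ℤ) ^ b) * (w * ((E : ℤ) - R)) = (q : ℤ) ^ n + 1 - ((q : ℤ) ^ b + 1) ^ 2) ∨
      (q : ℤ) * (w * ((E : ℤ) - R)) = (q : ℤ) ^ n + 1 + ((q : ℤ) - 1) * (q + 1) ^ 2 := by
  have hw := h.wpos
  obtain ⟨a, -, ha1, ha2, hcase⟩ := hS.pos_cases h.num (mul_nonneg hw.le (by omega))
  rcases hcase with hc | ⟨-, hqp, hc⟩
  · left
    refine ⟨n - a, by omega, ?_⟩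
    have h2 : (q : ℤ) ^ (n - a) * (q : ℤ) ^ a = (q : ℤ) ^ n := by
      rw [← pow_add]; congr 1; omega
    rw [hc, ← h2]
    ring
  · right
    have h2 : (q : ℤ) * (q : ℤ) ^ (n - 1) = (q : ℤ) ^ n := by
      rw [← pow_succ']
      congr 1
      have := h.num.h7
      omega
    rw [hc, ← h2]
    ring

theorem A7 : (q : ℤ) ^ 7 + 1 ≤ (q : ℤ) ^ n + 1 := by
  have h1 := zpow_mono h.num h.num.h7
  linarith

/-- `D_m(5)` -/
theorem dFive {E : ℕ} (hE : 5 * ((E : ℤ) - R) = R + 9) (hS : Spec p q n (w * ((E : ℤ) - R)))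
    (hne : ∀ b, 1 ≤ b → 5 ≠ q ^ b) : False := by
  have hw := h.wpos
  have hR := h.R547
  have hRZ := h.hRZ
  have h3 := h.num.q3
  have h3Z : (3 : ℤ) ≤ q := by exact_mod_cast h3
  have hw2 : (2 : ℤ) * w ≤ ((q : ℤ) + 1) ^ 2 := by exact_mod_cast h.w2
  have hA7 := h.A7
  set A : ℤ := (q : ℤ) ^ n + 1 with hA
  have h5X : 5 * (w * ((E : ℤ) - R)) = A + 9 * w := by
    rw [← hRZ]
    linear_combination w * hE
  rcases h.pos_form hS (by omega) with ⟨b, hb, h1⟩ | h1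
  · obtain ⟨Q, hQ⟩ : ∃ Q : ℕ, Q = q ^ b := ⟨_, rfl⟩
    have hQZ : (q : ℤ) ^ b = Q := by rw [hQ]; push_cast; rfl
    rw [hQZ] at h1
    have hqQ : q ≤ Q := by rw [hQ]; exact Nat.le_self_pow (by omega) q
    have hQ5 : Q ≠ 5 := fun h2 => hne b hb (by rw [← hQ, h2])
    have hQodd : Odd Q := by rw [hQ]; exact h.num.hodd.pow
    have e1 : (5 - (Q : ℤ)) * A = 5 * ((Q : ℤ) + 1) ^ 2 + 9 * w * Q := by
      linear_combination (Q : ℤ) * h5X - 5 * h1
    have hA0 : 0 < A := by rw [hA]; positivity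
    have hQlt : Q < 5 := by
      by_contra hcon
      have h2 : (5 - (Q : ℤ)) * A ≤ 0 := mul_nonpos_of_nonpos_of_nonneg (by omega) hA0.le
      have h4 : 0 < 5 * ((Q : ℤ) + 1) ^ 2 + 9 * w * Q := by positivity
      omega
    have hQ3 : Q = 3 := by
      rcases hQodd with ⟨k, hk⟩
      omega
    have hq3 : q = 3 := by omega
    subst hq3
    subst hQ3
    norm_num at e1 hA7 hw2
    omega
  · have e1 : (5 - (q : ℤ)) * A = 9 * w * q - 5 * (((q : ℤ) - 1) * (q + 1) ^ 2) := by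
      linear_combination (q : ℤ) * h5X - 5 * h1
    have hq5 : q ≠ 5 := fun h2 => hne 1 le_rfl (by rw [h2, pow_one])
    rcases h.num.q35 with h2 | h2
    · subst h2
      norm_num at e1 hA7 hw2
      omega
    · have h7 : 7 ≤ q := by
        rcases h.num.hodd with ⟨k, hk⟩
        omega
      have h7Z : (7 : ℤ) ≤ q := by exact_mod_cast h7
      have h8 : A ≤ ((q : ℤ) - 5) * A := by
        have : 0 ≤ ((q : ℤ) - 6) * A := mul_nonneg (by omega) (by rw [hA]; positivity)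
        linarith
      have h9 : ((q : ℤ) - 5) * A ≤ 5 * (((q : ℤ) - 1) * (q + 1) ^ 2) := by
        have : 0 ≤ 9 * (w : ℤ) * q := by positivity
        linarith
      have h10 : ((q : ℤ) - 1) * (q + 1) ^ 2 ≤ 4 * (q : ℤ) ^ 3 := by nlinarith
      have h11 : 7 ^ 4 * (q : ℤ) ^ 3 ≤ (q : ℤ) ^ 7 := by
        calc 7 ^ 4 * (q : ℤ) ^ 3 ≤ (q : ℤ) ^ 4 * (q : ℤ) ^ 3 :=
            mul_le_mul_of_nonneg_right (pow_le_pow_left₀ (by norm_num) h7Z 4) (by positivity)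
          _ = _ := by ring
      have h12 : (0 : ℤ) < (q : ℤ) ^ 3 := by positivity
      norm_num at h11
      linarith

/-- `²D_m(3)`, `m` odd -/
theorem dThree {E : ℕ} (hE : 9 * ((E : ℤ) - R) = R - 25) (hS : Spec p q n (w * ((E : ℤ) - R)))
    (hne : ∀ b, 1 ≤ b → 9 ≠ q ^ b) (hne3 : q ≠ 3) : False := by
  have hw := h.wpos
  have hR := h.R547
  have hRZ := h.hRZ
  have h5 : 5 ≤ q := by
    rcases h.num.q35 with h2 | h2 <;> omega
  have h5Z : (5 : ℤ) ≤ q := by exact_mod_cast h5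
  have hw2 : (2 : ℤ) * w ≤ ((q : ℤ) + 1) ^ 2 := by exact_mod_cast h.w2
  have hA7 := h.A7
  set A : ℤ := (q : ℤ) ^ n + 1 with hA
  have hA0 : 0 < A := by rw [hA]; positivity
  have hwq : (w : ℤ) ≤ (q : ℤ) ^ 2 := by nlinarith
  have h57 : 5 ^ 5 * (q : ℤ) ^ 2 ≤ (q : ℤ) ^ 7 := by
    calc 5 ^ 5 * (q : ℤ) ^ 2 ≤ (q : ℤ) ^ 5 * (q : ℤ) ^ 2 :=
        mul_le_mul_of_nonneg_right (pow_le_pow_left₀ (by norm_num) h5Z 5) (by positivity)
      _ = _ := by ring
  norm_num at h57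
  have h9X : 9 * (w * ((E : ℤ) - R)) = A - 25 * w := by
    rw [← hRZ]
    linear_combination w * hE
  rcases h.pos_form hS (by omega) with ⟨b, hb, h1⟩ | h1
  · obtain ⟨Q, hQ⟩ : ∃ Q : ℕ, Q = q ^ b := ⟨_, rfl⟩
    have hQZ : (q : ℤ) ^ b = Q := by rw [hQ]; push_cast; rfl
    rw [hQZ] at h1
    have hqQ : q ≤ Q := by rw [hQ]; exact Nat.le_self_pow (by omega) q
    have hQ9 : Q ≠ 9 := fun h2 => hne b hb (by rw [← hQ, h2])
    have hQodd : Odd Q := by rw [hQ]; exact h.num.hodd.pow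
    have e1 : (9 - (Q : ℤ)) * A = 9 * ((Q : ℤ) + 1) ^ 2 - 25 * w * Q := by
      linear_combination (Q : ℤ) * h9X - 9 * h1
    rcases lt_or_gt_of_ne hQ9 with h2 | h2
    · have h3 : A ≤ (9 - (Q : ℤ)) * A := by
        have : 0 ≤ (8 - (Q : ℤ)) * A := mul_nonneg (by omega) hA0.le
        linarith
      have h4 : 0 ≤ 25 * (w : ℤ) * Q := by positivity
      have h6 : ((Q : ℤ) + 1) ^ 2 ≤ 9 ^ 2 := pow_le_pow_left₀ (by omega) (by omega) 2
      have h7 : (25 : ℤ) ≤ (q : ℤ) ^ 2 := by nlinarith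
      norm_num at h6
      linarith
    · have hQ11 : 11 ≤ Q := by
        rcases hQodd with ⟨k, hk⟩
        omega
      have h3 : 2 * (Q : ℤ) * A ≤ 11 * (((Q : ℤ) - 9) * A) := by
        have : 0 ≤ (9 * (Q : ℤ) - 99) * A := mul_nonneg (by omega) hA0.le
        linarith
      have h4 : ((Q : ℤ) - 9) * A ≤ 25 * w * Q := by
        have : 0 ≤ 9 * ((Q : ℤ) + 1) ^ 2 := by positivity
        linarith
      have h6 : (2 * A) * Q ≤ (275 * w) * Q := by linarith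
      have h7 : 2 * A ≤ 275 * w := le_of_mul_le_mul_right h6 (by omega)
      linarith
  · have e1 : (9 - (q : ℤ)) * A = -(9 * (((q : ℤ) - 1) * (q + 1) ^ 2) + 25 * w * q) := by
      linear_combination (q : ℤ) * h9X - 9 * h1
    have hpos : 0 < 9 * (((q : ℤ) - 1) * (q + 1) ^ 2) + 25 * w * q := by
      have : 0 < ((q : ℤ) - 1) * (q + 1) ^ 2 := mul_pos (by omega) (by positivity)
      positivity
    have hq9 : 9 < (q : ℤ) := by
      by_contra hcon
      have : 0 ≤ (9 - (q : ℤ)) * A := mul_nonneg (by omega) hA0.le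
      omega
    have h3 : A ≤ ((q : ℤ) - 9) * A := by
      have : 0 ≤ ((q : ℤ) - 10) * A := mul_nonneg (by omega) hA0.le
      linarith
    have h10 : ((q : ℤ) - 1) * (q + 1) ^ 2 ≤ 4 * (q : ℤ) ^ 3 := by nlinarith
    have h11 : 25 * (w : ℤ) * q ≤ 25 * (q : ℤ) ^ 3 := by
      calc 25 * (w : ℤ) * q = 25 * (w * q) := by ring
        _ ≤ 25 * ((q : ℤ) ^ 2 * q) := by
          have := mul_le_mul_of_nonneg_right hwq (show (0 : ℤ) ≤ q by omega)
          linarith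
        _ = _ := by ring
    have h12 : 9 ^ 4 * (q : ℤ) ^ 3 ≤ (q : ℤ) ^ 7 := by
      calc 9 ^ 4 * (q : ℤ) ^ 3 ≤ (q : ℤ) ^ 4 * (q : ℤ) ^ 3 :=
          mul_le_mul_of_nonneg_right (pow_le_pow_left₀ (by norm_num) hq9.le 4) (by positivity)
        _ = _ := by ring
    have h13 : (0 : ℤ) < (q : ℤ) ^ 3 := by positivity
    norm_num at h12
    linarith

end Ctx

/-- not a square -/
theorem not_sq_of {N s t : ℕ} (h1 : s ^ 2 < N) (h2 : N < (s + 1) ^ 2) (h : N = t ^ 2) : False := by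
  rw [h] at h1 h2
  have h3 := lt_of_pow_lt_pow_left₀ 2 (Nat.zero_le _) h1
  have h4 := lt_of_pow_lt_pow_left₀ 2 (Nat.zero_le _) h2
  omega

end Cfsg.Agent.H437.Win
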