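import Cfsg.Agent.H437.Win.Core

/-!
# The numerical context: pairs of element orders near the isolated number
-/

set_option autoImplicit false

namespace Cfsg.Agent.H437.Win

variable {p q n R w : ℕ}

/-- `R = (q ^ n + 1) / w`, `w = gcd(n, q + 1) (q + 1)` -/
structure Ctx (p q n R w : ℕ) : Prop where
  num : Num p q n
  hw : w = Nat.gcd n (q + 1) * (q + 1)
  hR : R * w = q ^ n + 1

namespace Ctx

variable (h : Ctx p q n R w)

include h

theorem w4 : 4 ≤ w := by
  have h1 := h.num.q3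
  have h2 := h.num.gcd_pos
  rw [h.hw]
  calc 4 = 1 * 4 := rfl
    _ ≤ _ := Nat.mul_le_mul h2 (by omega)

theorem w2 : 2 * w ≤ (q + 1) ^ 2 := by
  rw [h.hw]
  calc 2 * (Nat.gcd n (q + 1) * (q + 1)) = (2 * Nat.gcd n (q + 1)) * (q + 1) := by ring
    _ ≤ (q + 1) * (q + 1) := Nat.mul_le_mul_right _ h.num.two_gcd
    _ = _ := by ring

theorem R_big : R = 547 ∨ 13021 ≤ R := by
  have h3 := h.num.q3
  have h7 := h.num.h7
  rcases Nat.lt_or_ge q 7 with hq7 | hq7
  · have hg : Nat.gcd n (q + 1) = 1 := by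
      rcases h.num.gcd_cases with h1 | ⟨h1, h2⟩
      · exact h1
      · omega
    have hw := h.hw
    rw [hg, one_mul] at hw
    have hR := h.hR
    rw [hw] at hR
    rcases h.num.q35 with h4 | h4
    · subst h4
      rcases Nat.eq_or_lt_of_le h7 with h8 | h8
      · left
        subst h8
        norm_num at hR
        omega
      · right
        have h9 : 3 ^ 10 ≤ 3 ^ n := Nat.pow_le_pow_right (by norm_num) (by
          have := h.num.nodd
          have hp := h.num.hn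
          by_contra hcon
          have h10 : n = 8 ∨ n = 9 := by omega
          rcases h10 with rfl | rfl
          · exact absurd hp (by norm_num)
          · exact absurd hp (by norm_num))
        norm_num at h9
        omega
    · have h5 : q = 5 := by
        rcases h.num.hodd with ⟨k, hk⟩
        omega
      subst h5
      right
      have h9 : 5 ^ 7 ≤ 5 ^ n := Nat.pow_le_pow_right (by norm_num) h7
      norm_num at h9
      omega
  · right
    by_contra hcon
    have h1 : R * (2 * w) ≤ 13020 * (q + 1) ^ 2 := Nat.mul_le_mul (by omega) h.w2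
    have h2 : 2 * (q ^ n + 1) = R * (2 * w) := by rw [← h.hR]; ring
    have h4 : q ^ 7 ≤ q ^ n := Nat.pow_le_pow_right (by omega) h7
    have h5 : (q + 1) ^ 2 ≤ 2 * q ^ 2 := by
      obtain ⟨t, rfl⟩ : ∃ t, q = t + 7 := ⟨q - 7, by omega⟩
      nlinarith
    have h6 : 16807 * q ^ 2 ≤ q ^ 7 := by
      calc 16807 * q ^ 2 = 7 ^ 5 * q ^ 2 := by norm_num
        _ ≤ q ^ 5 * q ^ 2 := Nat.mul_le_mul_right _ (Nat.pow_le_pow_left hq7 5)
        _ = _ := by ring
    omega

theorem R547 : 547 ≤ R := by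
  rcases h.R_big with h1 | h1 <;> omega

theorem hRZ : (R : ℤ) * w = (q : ℤ) ^ n + 1 := by exact_mod_cast h.hR

theorem X_eq (E : ℕ) : (w : ℤ) * E - ((q : ℤ) ^ n + 1) = w * ((E : ℤ) - R) := by
  rw [← h.hRZ]; ring

theorem upper {E : ℕ} (hE0 : 0 < E) (hW : Wd p q n E) : 10 * E ≤ 14 * R := by
  have h1 := wd_upper h.num hE0 hW
  rw [← h.hw] at h1
  obtain ⟨P, hP3, hP2, hP1, hP0, hP⟩ := pow_split h.num
  have h3 := h.num.q3
  have hR := h.hR
  rw [hP0, hP1] at h1
  rw [hP0] at hR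
  have h4 : 3 * (q ^ 2 * P) ≤ q ^ 3 * P := by
    calc 3 * (q ^ 2 * P) ≤ q * (q ^ 2 * P) := Nat.mul_le_mul_right _ h3
      _ = _ := by ring
  have h5 : 9 * q ^ 2 ≤ q ^ 4 := by
    calc 9 * q ^ 2 = 3 ^ 2 * q ^ 2 := by norm_num
      _ ≤ q ^ 2 * q ^ 2 := Nat.mul_le_mul_right _ (Nat.pow_le_pow_left h3 2)
      _ = _ := by ring
  have h6 : q ≤ q ^ 2 := Nat.le_self_pow two_ne_zero _
  have h7 : 9 * P ≤ q ^ 2 * P := Nat.mul_le_mul_right _ (by nlinarith)
  have hw := h.w4
  have h8 : w * (10 * E) ≤ w * (14 * R) := by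
    have e1 : w * (10 * E) = 10 * (w * E) := by ring
    have e2 : w * (14 * R) = 14 * (R * w) := by ring
    rw [e1, e2, hR]
    omega
  exact Nat.le_of_mul_le_mul_left h8 (by omega)

/-- an element order in the window -/
theorem spec {E : ℕ} (hE0 : 0 < E) (hW : Wd p q n E) (h7 : 7 * R < 10 * E) (hne : E ≠ R) :
    Spec p q n (w * ((E : ℤ) - R)) := by
  have hR := h.hR
  rw [h.hw] at hR
  rcases spec1 h.num hE0 hW hR (by
    rcases h.num.q35 with h3 | h3
    · exact Or.inl ⟨h3, h7⟩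
    · exact Or.inr ⟨by omega, by omega⟩) with h1 | h1
  · exact absurd h1 hne
  · rwa [← h.hw, h.X_eq] at h1

/-- the same for `q ≠ 3` -/
theorem spec' {E : ℕ} (hE0 : 0 < E) (hW : Wd p q n E) (hq3 : q ≠ 3) (h7 : 63 * R < 100 * E) (hne : E ≠ R) :
    Spec p q n (w * ((E : ℤ) - R)) := by
  have hR := h.hR
  rw [h.hw] at hR
  rcases spec1 h.num hE0 hW hR (Or.inr ⟨hq3, h7⟩) with h1 | h1
  · exact absurd h1 hne
  · rwa [← h.hw, h.X_eq] at h1

theorem wpos : (0 : ℤ) < w := by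
  have := h.w4
  omega

/-- no element order at distance `1`, `2` -/
theorem near {E : ℕ} (hE0 : 0 < E) (hW : Wd p q n E) (hne : E ≠ R) (h1 : E ≤ R + 2) (h2 : R ≤ E + 2) : False := by
  have hR := h.R547
  have h3 := (h.spec hE0 hW (by omega) hne).not_tiny h.num
  have h4 : |(w : ℤ) * ((E : ℤ) - R)| ≤ w * 2 := by
    rw [abs_mul, abs_of_nonneg h.wpos.le]
    exact mul_le_mul_of_nonneg_left (abs_le.2 ⟨by omega, by omega⟩) h.wpos.le
  have h5 : (2 : ℤ) * w ≤ ((q : ℤ) + 1) ^ 2 := by exact_mod_cast h.w2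
  linarith

/-- two orders below `R` -/
theorem pair_neg {E E' : ℕ} (hE0 : 0 < E') (hW : Wd p q n E) (hW' : Wd p q n E') (h7 : 7 * R < 10 * E')
    (h1 : E' < E) (h2 : E < R) : 3 * ((R : ℤ) - E) < R - E' := by
  have hX := h.spec (by omega) hW (by omega) (by omega)
  have hY := h.spec hE0 hW' h7 (by omega)
  have hw := h.wpos
  have h3 := hY.pair_neg h.num hX (mul_lt_mul_of_pos_left (by omega) hw) (mul_neg_of_pos_of_neg hw (by omega))
  have h4 : (w : ℤ) * (3 * ((R : ℤ) - E)) < w * (R - E') := by linarith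
  exact lt_of_mul_lt_mul_left h4 hw.le

/-- two orders above `R` -/
theorem pair_pos {E E' : ℕ} (hW : Wd p q n E) (hW' : Wd p q n E') (h1 : E' < E) (h2 : R < E') :
    3 * ((E' : ℤ) - R) < E - R ∨ ((E : ℤ) - E') * (E - R) < 2 * R := by
  have hR0 := h.R547
  have hX := h.spec (by omega) hW (by omega) (by omega)
  have hY := h.spec (by omega) hW' (by omega) (by omega)
  have hw := h.wpos
  rcases hX.pair_pos h.num hY (mul_lt_mul_of_pos_left (by omega) hw) (mul_pos hw (by omega)) with h3 | ⟨-, h3, h4⟩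
  · left
    have h4 : (w : ℤ) * (3 * ((E' : ℤ) - R)) < w * (E - R) := by linarith
    exact lt_of_mul_lt_mul_left h4 hw.le
  · right
    obtain ⟨P, hP3, hP2, hP1, hP0, hP⟩ := pow_split h.num
    have hq3 := h.num.q3
    have hq3' : (3 : ℤ) ≤ q := by exact_mod_cast hq3
    have h5 : (w : ℤ) * ((E : ℤ) - E') = ((q : ℤ) + 1) ^ 2 := by
      have : (w : ℤ) * ((E : ℤ) - E') = w * ((E : ℤ) - R) - w * ((E' : ℤ) - R) := by ring
      rw [this, h3, h4]
      ring
    -- `E - E' ≤ q + 1`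
    have h6 : (E : ℤ) - E' ≤ q + 1 := by
      have h7 : ((q : ℤ) + 1) ≤ w := by
        rw [h.hw]
        have := h.num.gcd_pos
        have h8 : 1 * (q + 1) ≤ Nat.gcd n (q + 1) * (q + 1) := Nat.mul_le_mul_right _ this
        push_cast
        zify at h8
        linarith
      have h9 : ((q : ℤ) + 1) * ((E : ℤ) - E') ≤ ((q : ℤ) + 1) * (q + 1) := by
        calc ((q : ℤ) + 1) * ((E : ℤ) - E') ≤ w * ((E : ℤ) - E') := mul_le_mul_of_nonneg_right h7 (by omega)
          _ = _ := by rw [h5]; ring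
      exact le_of_mul_le_mul_left h9 (by omega)
    have hPZ : (q : ℤ) ^ 4 ≤ P := by exact_mod_cast hP
    have hP1Z : (q : ℤ) ^ (n - 1) = (q : ℤ) ^ 2 * P := by exact_mod_cast hP1
    have hP0Z : (q : ℤ) ^ n = (q : ℤ) ^ 3 * P := by exact_mod_cast hP0
    have h10 : ((q : ℤ) + 1) * (w * ((E : ℤ) - R)) < 2 * (w * R) := by
      rw [h4, hP1Z]
      have h11 : (w : ℤ) * R = (q : ℤ) ^ 3 * P + 1 := by rw [mul_comm, h.hRZ, hP0Z]
      rw [h11]
      have h12 : 3 * ((q : ℤ) ^ 2 * P) ≤ (q : ℤ) ^ 3 * P := by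
        have h13 : 0 ≤ (q - 3 : ℤ) * ((q : ℤ) ^ 2 * P) := mul_nonneg (by omega) (by positivity)
        linarith
      have h14 : ((q : ℤ) + 1) * ((q : ℤ) ^ 2 + q) ≤ (q : ℤ) ^ 4 := by
        have h15 : ((q : ℤ) + 1) * ((q : ℤ) ^ 2 + q) = (q : ℤ) * (q + 1) ^ 2 := by ring
        rw [h15]
        have h16 : ((q : ℤ) + 1) ^ 2 ≤ (q : ℤ) ^ 3 := by nlinarith [mul_nonneg (sub_nonneg.2 hq3') (sq_nonneg (q : ℤ))]
        have h17 : (q : ℤ) * (q + 1) ^ 2 ≤ q * (q : ℤ) ^ 3 := mul_le_mul_of_nonneg_left h16 (by omega)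
        linarith
      have h18 : (P : ℤ) ≤ (q : ℤ) ^ 2 * P := by
        have h19 : 0 ≤ ((q : ℤ) ^ 2 - 1) * P := mul_nonneg (by nlinarith) (by positivity)
        linarith
      nlinarith
    have h11 : ((q : ℤ) + 1) * ((E : ℤ) - R) < 2 * R := by
      have h12 : (w : ℤ) * (((q : ℤ) + 1) * ((E : ℤ) - R)) < w * (2 * R) := by linarith
      exact lt_of_mul_lt_mul_left h12 hw.le
    have h12 : ((E : ℤ) - E') * (E - R) ≤ (q + 1) * (E - R) := mul_le_mul_of_nonneg_right h6 (by omega)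
    linarith

/-- one order below, one above `R` -/
theorem pair_opp {E E' : ℕ} (hE0 : 0 < E') (hW : Wd p q n E) (hW' : Wd p q n E') (h7 : 7 * R < 10 * E')
    (h1 : E' < R) (h2 : R < E) : 2 * ((R : ℤ) - E') ≤ E - R ∨ 2 * ((E : ℤ) - R) ≤ R - E' := by
  have hX := h.spec (by omega) hW (by omega) (by omega)
  have hY := h.spec hE0 hW' h7 (by omega)
  have hw := h.wpos
  rcases hX.pair_opp h.num hY (mul_pos hw (by omega)) (mul_neg_of_pos_of_neg hw (by omega)) with h3 | h3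
  · left
    have h4 : (w : ℤ) * (2 * ((R : ℤ) - E')) ≤ w * (E - R) := by linarith
    exact le_of_mul_le_mul_left h4 hw
  · right
    have h4 : (w : ℤ) * (2 * ((E : ℤ) - R)) ≤ w * (R - E') := by linarith
    exact le_of_mul_le_mul_left h4 hw

end Ctx

end Cfsg.Agent.H437.Win
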