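import Cfsg.Agent.H437.Win.Orb
import Mathlib

/-!
# Eigenvalues of unitary matrices
-/

set_option autoImplicit false

namespace Cfsg.Agent.H437.Win

open Polynomial Matrix

section

variable {K : Type*} [Field K]

theorem rev_X_sub_C {a : K} (ha : a ≠ 0) : (X - C a : K[X]).reverse = C (-a) * (X - C a⁻¹) := by
  rw [sub_eq_add_neg, ← C_neg, reverse_add_C, natDegree_X, pow_one,
    show (X : K[X]).reverse = 1 by
      rw [← one_mul (X : K[X]), reverse_mul_X]
      simpa using reverse_C (1 : K)]
  rw [mul_sub, ← C_mul, neg_mul, mul_inv_cancel₀ ha, C_neg, C_neg, C_1]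
  ring

theorem rev_prod (s : Multiset K) (h : ∀ a ∈ s, a ≠ 0) :
    ((s.map fun a => (X - C a : K[X])).prod).reverse =
      C ((s.map fun a => -a).prod) * ((s.map (·⁻¹)).map fun a => (X - C a : K[X])).prod := by
  induction s using Multiset.induction with
  | empty =>
    have h1 : (1 : K[X]).reverse = 1 := by simpa using reverse_C (1 : K)
    simp [h1]
  | cons a s ih =>
    have h1 : a ≠ 0 := h a (Multiset.mem_cons_self a s)
    rw [Multiset.map_cons, Multiset.prod_cons, reverse_mul_of_domain, rev_X_sub_C h1,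
      ih fun b hb => h b (Multiset.mem_cons_of_mem hb), Multiset.map_cons, Multiset.prod_cons, Multiset.map_cons,
      Multiset.map_cons, Multiset.prod_cons, C_mul]
    ring

variable [IsAlgClosed K] {ι : Type*} [Fintype ι] [DecidableEq ι]

theorem charpoly_eq_prod (Y : Matrix ι ι K) : Y.charpoly = ((Y.charpoly.roots).map fun a => (X - C a : K[X])).prod :=
  ((IsAlgClosed.splits Y.charpoly).eq_prod_roots_of_monic Y.charpoly_monic)

theorem roots_ne_zero {Y : Matrix ι ι K} (h : Y.det = 1) {a : K} (ha : a ∈ Y.charpoly.roots) : a ≠ 0 := by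
  rintro rfl
  have h1 : (Y.charpoly.roots).prod = 1 := by rw [← h, Matrix.det_eq_prod_roots_charpoly]
  have h2 : (Y.charpoly.roots).prod = 0 := Multiset.prod_eq_zero ha
  rw [h2] at h1
  exact zero_ne_one h1

theorem roots_inv {Y : Matrix ι ι K} (h : Y.det = 1) : (Y⁻¹).charpoly.roots = Y.charpoly.roots.map (·⁻¹) := by
  have hu : IsUnit Y := by rw [Matrix.isUnit_iff_isUnit_det, h]; exact isUnit_one
  have h1 : (Y⁻¹).charpoly = C ((-1) ^ Fintype.card ι) * Y.charpoly.reverse := by
    rw [Matrix.charpoly_inv Y hu, h, Ring.inverse_one, C_1, mul_one, Matrix.reverse_charpoly]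
    simp
  have hne : ∀ a ∈ Y.charpoly.roots, a ≠ 0 := fun a ha => roots_ne_zero h ha
  rw [h1]
  conv_lhs => rw [charpoly_eq_prod Y]
  rw [rev_prod _ hne, ← mul_assoc, ← C_mul, roots_C_mul, roots_multiset_prod_X_sub_C]
  apply mul_ne_zero
  · exact pow_ne_zero _ (by norm_num)
  · intro h0
    obtain ⟨a, ha, ha0⟩ := Multiset.mem_map.1 (Multiset.prod_eq_zero_iff.1 h0)
    exact hne a ha (neg_eq_zero.1 ha0)

/-- the multiplicities are stable -/
theorem count_stable [DecidableEq K] {p f q : ℕ} [Fact p.Prime] [CharP K p] (hq : q = p ^ f) {Y : Matrix ι ι K} (h : Y.det = 1)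
    (hY : (Y.map (iterateFrobenius K p f)).charpoly = (Y⁻¹).charpoly) (x : K) :
    Y.charpoly.roots.count (sg' q x) = Y.charpoly.roots.count x := by
  have h1 : (Y.map (iterateFrobenius K p f)).charpoly.roots = Y.charpoly.roots.map (iterateFrobenius K p f) := by
    rw [Matrix.charpoly_map]
    exact (IsAlgClosed.splits Y.charpoly).roots_map _
  rw [hY, roots_inv h] at h1
  have h2 : Multiset.count (iterateFrobenius K p f x) (Y.charpoly.roots.map (iterateFrobenius K p f)) =
      Y.charpoly.roots.count x := Multiset.count_map_eq_count' _ _ (iterateFrobenius K p f).injective x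
  have h3 : Multiset.count ((sg' q x)⁻¹) (Y.charpoly.roots.map (·⁻¹)) = Y.charpoly.roots.count (sg' q x) :=
    Multiset.count_map_eq_count' _ _ inv_injective _
  rw [← h3, ← h2, ← h1, sg', inv_inv, iterateFrobenius_def, hq]

omit [IsAlgClosed K] in
theorem sg'_injective {p f q : ℕ} [Fact p.Prime] [CharP K p] (hq : q = p ^ f) :
    Function.Injective (sg' q : K → K) := by
  intro x y hxy
  have h1 : x ^ q = y ^ q := inv_injective hxy
  apply (iterateFrobenius K p f).injective
  rw [iterateFrobenius_def, iterateFrobenius_def, ← hq, h1]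

/-- **Cayley-Hamilton**: a scalar power. -/
theorem pow_scalar [DecidableEq K] {p : ℕ} [Fact p.Prime] [CharP K p] (Y : Matrix ι ι K) {k s : ℕ} {z : K}
    (h1 : ∀ x ∈ Y.charpoly.roots, x ^ k = z) (h2 : ∀ x ∈ Y.charpoly.roots, Y.charpoly.roots.count x ≤ p ^ s) :
    Y ^ (k * p ^ s) = (z ^ p ^ s) • (1 : Matrix ι ι K) := by
  have hd : Y.charpoly ∣ (X ^ k - C z) ^ p ^ s := by
    have h3 : Y.charpoly = ∏ a ∈ Y.charpoly.roots.toFinset, (X - C a) ^ Y.charpoly.roots.count a := by
      conv_lhs => rw [charpoly_eq_prod Y]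
      rw [Finset.prod_multiset_map_count]
    rw [h3]
    apply Finset.prod_dvd_of_coprime
    · intro a _ b _ hab
      exact (pairwise_coprime_X_sub_C Function.injective_id hab).pow
    · intro a ha
      rw [Multiset.mem_toFinset] at ha
      have h4 : (X - C a : K[X]) ∣ X ^ k - C z := by
        rw [dvd_iff_isRoot, IsRoot.def, eval_sub, eval_pow, eval_X, eval_C, h1 a ha, sub_self]
      exact (pow_dvd_pow _ (h2 a ha)).trans (pow_dvd_pow_of_dvd h4 _)
  obtain ⟨Q, hQ⟩ := hd
  have h5 : aeval Y ((X ^ k - C z) ^ p ^ s) = 0 := by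
    rw [hQ, map_mul, Matrix.aeval_self_charpoly, zero_mul]
  rw [sub_pow_char_pow, map_sub, map_pow, map_pow, aeval_X, map_pow, aeval_C, sub_eq_zero] at h5
  rw [pow_mul, h5, Algebra.algebraMap_eq_smul_one, _root_.smul_pow, one_pow]

end

/-! ### Unitary matrices -/

section

variable {F : Type*} [Field F] {n : ℕ}

/-- a scalar power, over the field itself -/
theorem scalar_of_map {K : Type*} [Field K] [Algebra F K] (A : Matrix (Fin n) (Fin n) F) (hn : 1 ≤ n) {k : ℕ} {z : K}
    (h : (A.map (algebraMap F K)) ^ k = z • (1 : Matrix (Fin n) (Fin n) K)) : ∃ c : F, A ^ k = c • (1 : Matrix (Fin n) (Fin n) F) := by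
  have h1 : (A ^ k).map (algebraMap F K) = z • (1 : Matrix (Fin n) (Fin n) K) := by
    rw [← h]
    exact ((algebraMap F K).mapMatrix (m := Fin n)).map_pow A k
  have hent : ∀ i j, algebraMap F K ((A ^ k) i j) = z * (1 : Matrix (Fin n) (Fin n) K) i j := by
    intro i j
    have := congrFun (congrFun h1 i) j
    simpa [Matrix.map_apply, Matrix.smul_apply] using this
  refine ⟨(A ^ k) ⟨0, hn⟩ ⟨0, hn⟩, ?_⟩
  ext i j
  apply (algebraMap F K).injective
  rw [hent, Matrix.smul_apply, smul_eq_mul, map_mul, hent, Matrix.one_apply_eq, mul_one]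
  by_cases hij : i = j
  · subst hij
    simp
  · rw [Matrix.one_apply_ne hij, Matrix.one_apply_ne hij]
    simp

end

end Cfsg.Agent.H437.Win
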