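import Cfsg.Agent.H437.Win.LU3

/-!
# The exceptional families: the numerical contradictions
-/

set_option autoImplicit false

namespace Cfsg.Agent.H437.Win

variable {p q n R w : ℕ}

namespace Ctx

variable (h : Ctx p q n R w)

include h

theorem bigZ : (R : ℤ) = 547 ∨ (13021 : ℤ) ≤ R := by
  rcases h.R_big with h1 | h1
  · left; exact_mod_cast h1
  · right; exact_mod_cast h1

/-- `pair_neg` over the integers -/
theorem pnegZ {E E' : ℕ} (hW : Wd p q n E) (hW' : Wd p q n E') (h7 : 7 * (R : ℤ) < 10 * E')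
    (h1 : (E' : ℤ) < E) (h2 : (E : ℤ) < R) : 3 * ((R : ℤ) - E) < R - E' := by
  have := h.R547
  exact h.pair_neg (by omega) hW hW' (by omega) (by omega) (by omega)

theorem pposZ {E E' : ℕ} (hW : Wd p q n E) (hW' : Wd p q n E') (h1 : (E' : ℤ) < E) (h2 : (R : ℤ) < E') :
    3 * ((E' : ℤ) - R) < E - R ∨ ((E : ℤ) - E') * (E - R) < 2 * R :=
  h.pair_pos hW hW' (by omega) (by omega)

theorem poppZ {E E' : ℕ} (hW : Wd p q n E) (hW' : Wd p q n E') (h7 : 7 * (R : ℤ) < 10 * E')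
    (h1 : (E' : ℤ) < R) (h2 : (R : ℤ) < E) : 2 * ((R : ℤ) - E') ≤ E - R ∨ 2 * ((E : ℤ) - R) ≤ R - E' := by
  have := h.R547
  exact h.pair_opp (by omega) hW hW' (by omega) (by omega) (by omega)

/-- `G₂(u)` -/
theorem gTwo {u A B C : ℕ} (hA : (A : ℤ) = (u : ℤ) ^ 2 + u + 1) (hB : (B : ℤ) = (u : ℤ) ^ 2 - u + 1)
    (hC : (C : ℤ) = (u : ℤ) ^ 2 - 1) (hWA : Wd p q n A) (hWB : Wd p q n B) (hWC : Wd p q n C)
    (hR : R = A ∨ R = B) : False := by
  have hR0 := h.R547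
  have hu : 20 ≤ u := by
    by_contra hcon
    have h1 : u ≤ 19 := by omega
    have h2 : (u : ℤ) ^ 2 ≤ 19 ^ 2 := pow_le_pow_left₀ (by omega) (by exact_mod_cast h1) 2
    rcases hR with h3 | h3 <;> subst h3 <;> omega
  obtain ⟨t, rfl⟩ : ∃ t, u = t + 20 := ⟨u - 20, by omega⟩
  push_cast at hA hB hC
  rcases hR with h3 | h3
  · have h4 : (R : ℤ) = A := by exact_mod_cast h3
    have h5 := h.pnegZ hWC hWB (by rw [h4, hA, hB]; nlinarith) (by rw [hB, hC]; nlinarith) (by rw [h4, hA, hC]; nlinarith)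
    rw [h4, hA, hB, hC] at h5
    nlinarith
  · have h4 : (R : ℤ) = B := by exact_mod_cast h3
    rcases h.pposZ hWA hWC (by rw [hA, hC]; nlinarith) (by rw [h4, hB, hC]; nlinarith) with h5 | h5
    · rw [h4, hA, hB, hC] at h5
      nlinarith
    · rw [h4, hA, hB, hC] at h5
      nlinarith

/-- `³D₄(u)`, `F₄(u)` -/
theorem dFour {u A B : ℕ} (hA : (A : ℤ) = ((u : ℤ) ^ 3 - 1) * (u + 1)) (hB : (B : ℤ) = ((u : ℤ) ^ 3 + 1) * (u - 1))
    (hWA : Wd p q n A) (hWB : Wd p q n B)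
    (hR : (R : ℤ) = (u : ℤ) ^ 4 - (u : ℤ) ^ 2 + 1 ∨ (R : ℤ) = (u : ℤ) ^ 4 + 1) : False := by
  have hR0 := h.R547
  have hu : 4 ≤ u := by
    by_contra hcon
    have h1 : u ≤ 3 := by omega
    have h2 : (u : ℤ) ^ 4 ≤ 3 ^ 4 := pow_le_pow_left₀ (by omega) (by exact_mod_cast h1) 4
    have h3 : 0 ≤ (u : ℤ) ^ 2 := by positivity
    norm_num at h2
    rcases hR with h3 | h3 <;> omega
  obtain ⟨t, rfl⟩ : ∃ t, u = t + 4 := ⟨u - 4, by omega⟩
  push_cast at hA hB hR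
  have key : ∀ {X Y : ℤ}, 0 < Y - X → X < Y := fun h => by linarith
  rcases hR with h4 | h4
  · rcases h.poppZ hWA hWB (by rw [h4, hB]; apply key; ring_nf; positivity)
      (by rw [h4, hB]; apply key; ring_nf; positivity) (by rw [h4, hA]; apply key; ring_nf; positivity) with h5 | h5
    · rw [h4, hA, hB] at h5
      refine absurd h5 (not_le.2 (key ?_))
      ring_nf
      positivity
    · rw [h4, hA, hB] at h5
      refine absurd h5 (not_le.2 (key ?_))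
      ring_nf
      positivity
  · rcases h.poppZ hWA hWB (by rw [h4, hB]; apply key; ring_nf; positivity)
      (by rw [h4, hB]; apply key; ring_nf; positivity) (by rw [h4, hA]; apply key; ring_nf; positivity) with h5 | h5
    · rw [h4, hA, hB] at h5
      refine absurd h5 (not_le.2 (key ?_))
      ring_nf
      positivity
    · rw [h4, hA, hB] at h5
      refine absurd h5 (not_le.2 (key ?_))
      ring_nf
      positivity

omit h in
theorem eSix_aux (t : ℕ) : 2 * (((t : ℤ) + 5) ^ 6 + ((t : ℤ) + 5) ^ 3 + 1) * 3 ≤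
    (((t : ℤ) + 5) ^ 3 - 2 * ((t : ℤ) + 5) - 2) * (((t : ℤ) + 5) ^ 5 - ((t : ℤ) + 5) ^ 3 - ((t : ℤ) + 5) - 2) := by
  have h1 : (0 : ℤ) ≤ (((t : ℤ) + 5) ^ 3 - 2 * ((t : ℤ) + 5) - 2) *
      (((t : ℤ) + 5) ^ 5 - ((t : ℤ) + 5) ^ 3 - ((t : ℤ) + 5) - 2) -
      2 * (((t : ℤ) + 5) ^ 6 + ((t : ℤ) + 5) ^ 3 + 1) * 3 := by
    ring_nf
    positivity
  linarith

set_option maxHeartbeats 4000000 in
/-- `E₆(u)` -/
theorem eSix {u g A B : ℕ} (hg : g = 1 ∨ g = 3) (hR : (R : ℤ) * g = (u : ℤ) ^ 6 + (u : ℤ) ^ 3 + 1)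
    (hA : (A : ℤ) * g = ((u : ℤ) ^ 2 + u + 1) * ((u : ℤ) ^ 4 - (u : ℤ) ^ 2 + 1))
    (hB : (B : ℤ) * g = ((u : ℤ) ^ 5 - 1) * (u + 1)) (hWA : Wd p q n A) (hWB : Wd p q n B) : False := by
  have hR0 := h.bigZ
  have hgZ : (g : ℤ) = 1 ∨ (g : ℤ) = 3 := by
    rcases hg with h1 | h1
    · left; exact_mod_cast h1
    · right; exact_mod_cast h1
  have hg0 : (0 : ℤ) < g := by rcases hgZ with h1 | h1 <;> omega
  have hu : 5 ≤ u := by
    by_contra hcon
    have h1 : u = 0 ∨ u = 1 ∨ u = 2 ∨ u = 3 ∨ u = 4 := by omega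
    rcases h1 with rfl | rfl | rfl | rfl | rfl <;> rcases hgZ with h2 | h2 <;> rw [h2] at hR <;> norm_num at hR <;>
      omega
  obtain ⟨t, rfl⟩ : ∃ t, u = t + 5 := ⟨u - 5, by omega⟩
  push_cast at hA hB hR
  have key : ∀ {X Y : ℤ}, 0 < Y - X → X < Y := fun h => by linarith
  have hAB : (A : ℤ) < B := by
    apply lt_of_mul_lt_mul_right _ hg0.le
    rw [hA, hB]
    apply key
    ring_nf
    positivity
  have hRA : (R : ℤ) < A := by
    apply lt_of_mul_lt_mul_right _ hg0.le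
    rw [hA, hR]
    apply key
    ring_nf
    positivity
  rcases h.pposZ hWB hWA hAB hRA with h5 | h5
  · have h6 : 3 * ((A : ℤ) * g - R * g) < B * g - R * g := by
      have := mul_lt_mul_of_pos_right h5 hg0
      linarith
    rw [hA, hB, hR] at h6
    refine absurd h6 (not_lt.2 (le_of_lt (key ?_)))
    ring_nf
    positivity
  · have h6 : ((B : ℤ) * g - A * g) * (B * g - R * g) < 2 * (R * g) * g := by
      have := mul_lt_mul_of_pos_right (mul_lt_mul_of_pos_right h5 hg0) hg0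
      linarith
    have h7 : 2 * ((R : ℤ) * g) * g ≤ 2 * (R * g) * 3 := by
      refine mul_le_mul_of_nonneg_left (by rcases hgZ with h1 | h1 <;> omega) (by positivity)
    have e1 : (B : ℤ) * g - A * g = ((t : ℤ) + 5) ^ 3 - 2 * ((t : ℤ) + 5) - 2 := by rw [hA, hB]; ring
    have e2 : (B : ℤ) * g - R * g = ((t : ℤ) + 5) ^ 5 - ((t : ℤ) + 5) ^ 3 - ((t : ℤ) + 5) - 2 := by rw [hB, hR]; ring
    rw [e1, e2] at h6
    rw [hR] at h7
    exact absurd (h6.trans_le (hR ▸ h7)) (not_lt.2 (eSix_aux t))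

set_option maxHeartbeats 4000000 in
/-- `²E₆(u)` -/
theorem eSixT {u g A B : ℕ} (hg : g = 1 ∨ g = 3) (hR : (R : ℤ) * g = (u : ℤ) ^ 6 - (u : ℤ) ^ 3 + 1)
    (hA : (A : ℤ) * g = ((u : ℤ) ^ 2 - u + 1) * ((u : ℤ) ^ 4 - (u : ℤ) ^ 2 + 1))
    (hB : (B : ℤ) * g = ((u : ℤ) ^ 5 + 1) * (u - 1)) (hWA : Wd p q n A) (hWB : Wd p q n B) : False := by
  have hR0 := h.bigZ
  have hgZ : (g : ℤ) = 1 ∨ (g : ℤ) = 3 := by
    rcases hg with h1 | h1
    · left; exact_mod_cast h1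
    · right; exact_mod_cast h1
  have hg0 : (0 : ℤ) < g := by rcases hgZ with h1 | h1 <;> omega
  have hu : 4 ≤ u := by
    by_contra hcon
    have h1 : u = 0 ∨ u = 1 ∨ u = 2 ∨ u = 3 := by omega
    rcases h1 with rfl | rfl | rfl | rfl <;> rcases hgZ with h2 | h2 <;> rw [h2] at hR <;> norm_num at hR <;>
      omega
  obtain ⟨t, rfl⟩ : ∃ t, u = t + 4 := ⟨u - 4, by omega⟩
  push_cast at hA hB hR
  have key : ∀ {X Y : ℤ}, 0 < Y - X → X < Y := fun h => by linarith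
  have hAB : (B : ℤ) < A := by
    apply lt_of_mul_lt_mul_right _ hg0.le
    rw [hA, hB]
    apply key
    ring_nf
    positivity
  have hRA : (A : ℤ) < R := by
    apply lt_of_mul_lt_mul_right _ hg0.le
    rw [hA, hR]
    apply key
    ring_nf
    positivity
  have h7 : 7 * (R : ℤ) < 10 * B := by
    apply lt_of_mul_lt_mul_right _ hg0.le
    rw [mul_assoc, mul_assoc, hB, hR]
    apply key
    ring_nf
    positivity
  have h5 := h.pnegZ hWA hWB h7 hAB hRA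
  have h6 : 3 * ((R : ℤ) * g - A * g) < R * g - B * g := by
    have := mul_lt_mul_of_pos_right h5 hg0
    linarith
  have e1 : (R : ℤ) * g - A * g = ((t : ℤ) + 4) ^ 5 - 2 * ((t : ℤ) + 4) ^ 3 + ((t : ℤ) + 4) := by rw [hA, hR]; ring
  have e2 : (R : ℤ) * g - B * g = ((t : ℤ) + 4) ^ 5 - ((t : ℤ) + 4) ^ 3 - ((t : ℤ) + 4) + 2 := by rw [hB, hR]; ring
  rw [e1, e2] at h6
  refine absurd h6 (not_lt.2 (le_of_lt (key ?_)))
  ring_nf
  positivity

omit h in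
set_option maxHeartbeats 4000000 in
theorem eEight_aux (t : ℕ) {A B C D : ℤ}
    (hA : A = ((t : ℤ) + 4) ^ 8 - ((t : ℤ) + 4) ^ 7 + ((t : ℤ) + 4) ^ 5 - ((t : ℤ) + 4) ^ 4 + ((t : ℤ) + 4) ^ 3 -
      ((t : ℤ) + 4) + 1)
    (hB : B = ((t : ℤ) + 4) ^ 8 - ((t : ℤ) + 4) ^ 6 + ((t : ℤ) + 4) ^ 4 - ((t : ℤ) + 4) ^ 2 + 1)
    (hC : C = ((t : ℤ) + 4) ^ 8 - ((t : ℤ) + 4) ^ 4 + 1)
    (hD : D = ((t : ℤ) + 4) ^ 8 + ((t : ℤ) + 4) ^ 7 - ((t : ℤ) + 4) ^ 5 - ((t : ℤ) + 4) ^ 4 - ((t : ℤ) + 4) ^ 3 +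
      ((t : ℤ) + 4) + 1) :
    0 < C - B ∧ ((t : ℤ) + 4) ^ 6 ≤ C - A ∧ 4 * (C - B) < C - A ∧ 0 < A ∧ 7 * D < 10 * B ∧ 7 * B < 10 * A ∧
      7 * C < 10 * A ∧ A < ((t : ℤ) + 4) ^ 6 * ((t : ℤ) + 4) ^ 6 ∧ D - C = C - A := by
  subst hA hB hC hD
  refine ⟨?_, ?_, ?_, ?_, ?_, ?_, ?_, ?_, by ring⟩
  · ring_nf; positivity
  · rw [← sub_nonneg]; ring_nf; positivity
  · rw [← sub_pos]; ring_nf; positivity
  · ring_nf; positivity
  · rw [← sub_pos]; ring_nf; positivity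
  · rw [← sub_pos]; ring_nf; positivity
  · rw [← sub_pos]; ring_nf; positivity
  · rw [← sub_pos]; ring_nf; positivity

set_option maxHeartbeats 4000000 in
/-- `E₈(u)` -/
theorem eEight {u A B C D : ℕ}
    (hA : (A : ℤ) = (u : ℤ) ^ 8 - (u : ℤ) ^ 7 + (u : ℤ) ^ 5 - (u : ℤ) ^ 4 + (u : ℤ) ^ 3 - u + 1)
    (hB : (B : ℤ) = (u : ℤ) ^ 8 - (u : ℤ) ^ 6 + (u : ℤ) ^ 4 - (u : ℤ) ^ 2 + 1)
    (hC : (C : ℤ) = (u : ℤ) ^ 8 - (u : ℤ) ^ 4 + 1)
    (hD : (D : ℤ) = (u : ℤ) ^ 8 + (u : ℤ) ^ 7 - (u : ℤ) ^ 5 - (u : ℤ) ^ 4 - (u : ℤ) ^ 3 + u + 1)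
    (hWA : Wd p q n A) (hWB : Wd p q n B) (hWC : Wd p q n C) (hWD : Wd p q n D)
    (hR : R = A ∨ R = B ∨ R = C ∨ R = D) : False := by
  have hR0 := h.bigZ
  have hu : 4 ≤ u := by
    by_contra hcon
    have h1 : u = 0 ∨ u = 1 ∨ u = 2 ∨ u = 3 := by omega
    rcases h1 with rfl | rfl | rfl | rfl <;> norm_num at hA hB hC hD <;>
      rcases hR with h2 | h2 | h2 | h2 <;> omega
  obtain ⟨t, rfl⟩ : ∃ t, u = t + 4 := ⟨u - 4, by omega⟩
  push_cast at hA hB hC hD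
  have key : ∀ {X Y : ℤ}, 0 < Y - X → X < Y := fun h => by linarith
  obtain ⟨p1, p2, p4, p5, p6, p7, p8, p9, e5⟩ := eEight_aux t hA hB hC hD
  have p3 : (0 : ℤ) < ((t : ℤ) + 4) ^ 6 := by positivity
  rcases hR with h3 | h3 | h3 | h3
  · have h4 : (R : ℤ) = A := by exact_mod_cast h3
    rcases h.pposZ hWD hWC (by linarith) (by linarith) with h5 | h5
    · rw [h4] at h5
      linarith
    · rw [h4] at h5
      have h6 : (D : ℤ) - C = C - A := e5
      have h7 : (D : ℤ) - A = 2 * (C - A) := by linarith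
      rw [h6, h7] at h5
      have h8 : ((t : ℤ) + 4) ^ 6 * ((t : ℤ) + 4) ^ 6 ≤ ((C : ℤ) - A) * (C - A) :=
        mul_le_mul p2 p2 p3.le (by linarith)
      linarith
  · have h4 : (R : ℤ) = B := by exact_mod_cast h3
    rcases h.poppZ hWD hWA (by linarith) (by linarith) (by linarith) with h5 | h5
    · rw [h4] at h5
      linarith
    · rw [h4] at h5
      linarith
  · have h4 : (R : ℤ) = C := by exact_mod_cast h3
    rcases h.poppZ hWD hWA (by linarith) (by linarith) (by linarith) with h5 | h5 <;> linarith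
  · have h4 : (R : ℤ) = D := by exact_mod_cast h3
    have h5 := h.pnegZ hWC hWB (by linarith) (by linarith) (by linarith)
    rw [h4] at h5
    linarith

/-- Suzuki and small Ree groups -/
theorem szRee {u s A B C : ℕ} (hs : (s : ℤ) ^ 2 = 2 * u ∨ (s : ℤ) ^ 2 = 3 * u) (hA : (A : ℤ) = (u : ℤ) + s + 1)
    (hB : (B : ℤ) = (u : ℤ) - s + 1) (hC : (C : ℤ) = (u : ℤ) - 1) (hWA : Wd p q n A) (hWB : Wd p q n B)
    (hWC : Wd p q n C) (hR : R = A ∨ R = B ∨ R = C) : False := by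
  have hR0 := h.R547
  have hs2 : 2 * (u : ℤ) ≤ (s : ℤ) ^ 2 ∧ (s : ℤ) ^ 2 ≤ 3 * u := by
    rcases hs with h1 | h1 <;> constructor <;> omega
  have hs20 : 20 ≤ s := by
    by_contra hcon
    have h1 : s ≤ 19 := by omega
    have h2 : (s : ℤ) ^ 2 ≤ 19 ^ 2 := pow_le_pow_left₀ (by omega) (by exact_mod_cast h1) 2
    norm_num at h2
    rcases hR with h3 | h3 | h3 <;> omega
  have hsZ : (20 : ℤ) ≤ s := by exact_mod_cast hs20
  have h20 : 20 * (s : ℤ) ≤ (s : ℤ) ^ 2 := by nlinarith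
  rcases hR with h3 | h3 | h3
  · have h4 : (R : ℤ) = A := by exact_mod_cast h3
    have h5 := h.pnegZ hWC hWB (by omega) (by omega) (by omega)
    omega
  · have h4 : (R : ℤ) = B := by exact_mod_cast h3
    rcases h.pposZ hWA hWC (by omega) (by omega) with h5 | h5
    · omega
    · rw [h4, hA, hB, hC] at h5
      nlinarith
  · have h4 : (R : ℤ) = C := by exact_mod_cast h3
    rcases h.poppZ hWA hWB (by omega) (by omega) (by omega) with h5 | h5 <;> omega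

set_option maxHeartbeats 4000000 in
/-- `²F₄(u)` -/
theorem fFourT {u s A B C : ℕ} (hs : (s : ℤ) ^ 2 = 2 * u) (hA : (A : ℤ) = (u : ℤ) ^ 2 + u * s + u + s + 1)
    (hB : (B : ℤ) = (u : ℤ) ^ 2 - u * s + u - s + 1) (hC : (C : ℤ) = (u : ℤ) ^ 2 - u + 1) (hWA : Wd p q n A)
    (hWB : Wd p q n B) (hWC : Wd p q n C) (hR : R = A ∨ R = B) : False := by
  have hR0 := h.bigZ
  have hse : ∃ r : ℕ, s = 2 * r := by
    have h1 : s ^ 2 = 2 * u := by exact_mod_cast hs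
    have h2 : 2 ∣ s ^ 2 := ⟨u, h1⟩
    exact Nat.prime_two.dvd_of_dvd_pow h2
  obtain ⟨r, rfl⟩ := hse
  push_cast at hs hA hB
  have hu : (u : ℤ) = 2 * (r : ℤ) ^ 2 := by linarith
  rw [hu] at hA hB hC
  have hr : 6 ≤ r := by
    by_contra hcon
    have h1 : r = 0 ∨ r = 1 ∨ r = 2 ∨ r = 3 ∨ r = 4 ∨ r = 5 := by omega
    rcases h1 with rfl | rfl | rfl | rfl | rfl | rfl <;> norm_num at hA hB hC <;>
      rcases hR with h3 | h3 <;> omega
  obtain ⟨t, rfl⟩ : ∃ t, r = t + 6 := ⟨r - 6, by omega⟩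
  push_cast at hA hB hC
  have key : ∀ {X Y : ℤ}, 0 < Y - X → X < Y := fun h => by linarith
  rcases hR with h3 | h3
  · have h4 : (R : ℤ) = A := by exact_mod_cast h3
    have h5 := h.pnegZ hWC hWB (by rw [h4, hA, hB]; apply key; ring_nf; positivity)
      (by rw [hB, hC]; apply key; ring_nf; positivity) (by rw [h4, hA, hC]; apply key; ring_nf; positivity)
    rw [h4, hA, hB, hC] at h5
    refine absurd h5 (not_lt.2 (le_of_lt (key ?_)))
    ring_nf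
    positivity
  · have h4 : (R : ℤ) = B := by exact_mod_cast h3
    rcases h.pposZ hWA hWC (by rw [hA, hC]; apply key; ring_nf; positivity)
      (by rw [h4, hB, hC]; apply key; ring_nf; positivity) with h5 | h5
    · rw [h4, hA, hB, hC] at h5
      refine absurd h5 (not_lt.2 (le_of_lt (key ?_)))
      ring_nf
      positivity
    · rw [h4, hA, hB, hC] at h5
      refine absurd h5 (not_lt.2 (le_of_lt (key ?_)))
      ring_nf
      positivity

end Ctx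

end Cfsg.Agent.H437.Win
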