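import Cfsg.Agent.H360.Iso.Basic
import Cfsg.Agent.H437.Win.LU3
import Cfsg.Agent.H437.Win.Minus

/-!
# Groups in the window of `PSU_n(q)`, `n` prime
-/

set_option autoImplicit false

namespace Cfsg.Agent.H437.Win

open Cfsg.Agent.H360.Iso

/-- the situation of a composition factor of a group isospectral to `PSU_n(q)`, `n ≥ 7` prime -/
structure UWin (T : Type*) [Group T] (p q n R w : ℕ) : Prop where
  iso : IsoN T R
  ctx : Ctx p q n R w
  hn : n ∈ ({7, 11, 13, 17, 19, 23} : Finset ℕ)
  win : ∀ x : T, Wd p q n (orderOf x)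
  prm : ∀ r : ℕ, r.Prime → r ∣ Nat.card T → r = p ∨ ∃ k, 1 ≤ k ∧ k ≤ n ∧ (r : ℤ) ∣ (-(q : ℤ)) ^ k - 1

namespace UWin

variable {T : Type*} [Group T] {p q n R w : ℕ}

theorem congr {T' : Type*} [Group T'] (h : UWin T p q n R w) (e : T ≃* T') : UWin T' p q n R w := by
  refine ⟨h.iso.congr e, h.ctx, h.hn, ?_, ?_⟩
  · intro x
    have h1 := h.win (e.symm x)
    rwa [show orderOf (e.symm x) = orderOf x from orderOf_injective e.symm.toMonoidHom e.symm.injective x] at h1
  · rw [← Nat.card_congr e.toEquiv]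
    exact h.prm

/-- the window condition for an element order -/
theorem wd (h : UWin T p q n R w) {E : ℕ} (he : ∃ x : T, orderOf x = E) : Wd p q n E := by
  obtain ⟨x, rfl⟩ := he
  exact h.win x

/-- orders which are small multiples of an element order -/
theorem upper [Finite T] (h : UWin T p q n R w) {E : ℕ} (he : ∃ x : T, orderOf x = E) : 10 * E ≤ 14 * R := by
  have h1 := h.wd he
  obtain ⟨x, rfl⟩ := he
  exact h.ctx.upper (orderOf_pos x) h1

end UWin

end Cfsg.Agent.H437.Win
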