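import Cfsg.Agent.H437.Win.Orb

/-!
# Special values: the numbers `w E - (q ^ n + 1)` for large element orders `E` of `PSU_n(q)`
-/

set_option autoImplicit false

namespace Cfsg.Agent.H437.Win

/-- the conclusion of the window lemma -/
def Wd (p q n E : ℕ) : Prop :=
  E ≤ q ^ (n - 3) * (q + 1) ∨
  E * (Nat.gcd n (q + 1) * (q + 1)) ∣ q ^ n + 1 ∨
  (∃ a b, 1 ≤ a ∧ 1 ≤ b ∧ a + b = n ∧ E * (Nat.gcd n (q + 1) * (q + 1)) ∣ ua q a * ua q b) ∨
  E * Nat.gcd n (q + 1) ∣ p * (q ^ (n - 2) + 1)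

/-- the numerical set up: `q = p ^ f` odd, `n ≥ 7` prime -/
structure Num (p q n : ℕ) : Prop where
  hp : p.Prime
  hq : ∃ f, 1 ≤ f ∧ q = p ^ f
  hodd : Odd q
  hn : n.Prime
  h7 : 7 ≤ n

/-- the special values -/
def Spec (p q n : ℕ) (X : ℤ) : Prop :=
  (∃ a b : ℕ, Even a ∧ Odd b ∧ 2 ≤ a ∧ 1 ≤ b ∧ a + b = n ∧ X = (q : ℤ) ^ a - (q : ℤ) ^ b - 2) ∨
  (q = p ∧ X = (q : ℤ) ^ (n - 1) + (q : ℤ) ^ 2 + q - 1)

variable {p q n : ℕ}

namespace Num

variable (h : Num p q n)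

include h

theorem p_odd : Odd p := by
  obtain ⟨f, hf, rfl⟩ := h.hq
  rcases h.hp.eq_two_or_odd' with h2 | h2
  · exfalso
    have := h.hodd
    rw [h2, Nat.odd_pow_iff (by omega)] at this
    exact absurd this (by decide)
  · exact h2

theorem p3 : 3 ≤ p := by
  have := h.hp.two_le
  have := h.p_odd
  rcases this with ⟨k, hk⟩
  omega

theorem hpq : p ≤ q := by
  obtain ⟨f, hf, rfl⟩ := h.hq
  exact Nat.le_self_pow (by omega) p

theorem q3 : 3 ≤ q := h.p3.trans h.hpq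

theorem three_p (hne : q ≠ p) : 3 * p ≤ q := by
  obtain ⟨f, hf, hq⟩ := h.hq
  have hf2 : 2 ≤ f := by
    by_contra hcon
    have : f = 1 := by omega
    rw [this, pow_one] at hq
    exact hne hq
  rw [hq]
  calc 3 * p ≤ p * p := Nat.mul_le_mul_right _ h.p3
    _ = p ^ 2 := by ring
    _ ≤ p ^ f := Nat.pow_le_pow_right h.hp.pos hf2

theorem nodd : Odd n := h.hn.odd_of_ne_two (by have := h.h7; omega)

theorem gcd_cases : Nat.gcd n (q + 1) = 1 ∨ (Nat.gcd n (q + 1) = n ∧ 2 * n ≤ q + 1) := by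
  rcases (Nat.dvd_prime h.hn).1 (Nat.gcd_dvd_left n (q + 1)) with h1 | h1
  · exact Or.inl h1
  · right
    refine ⟨h1, ?_⟩
    have h2 : n ∣ q + 1 := by
      rw [← h1]; exact Nat.gcd_dvd_right _ _
    have h3 : 2 ∣ q + 1 := (h.hodd.add_odd odd_one).two_dvd
    have h4 : Nat.Coprime 2 n := Nat.coprime_two_left.2 h.nodd
    exact Nat.le_of_dvd (by omega) (Nat.Coprime.mul_dvd_of_dvd_of_dvd h4 h3 h2)

theorem gcd_pos : 1 ≤ Nat.gcd n (q + 1) := Nat.gcd_pos_of_pos_left _ h.hn.pos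

theorem two_gcd : 2 * Nat.gcd n (q + 1) ≤ q + 1 := by
  have := h.q3
  rcases h.gcd_cases with h1 | ⟨h1, h2⟩
  · omega
  · omega

/-- the bound for the small orders -/
theorem small (h3 : q = 3 ∨ 5 ≤ q) : (q = 3 ∧ 10 * (Nat.gcd n (q + 1) * (q + 1) ^ 2) ≤ 7 * q ^ 3) ∨
    (5 ≤ q ∧ 100 * (Nat.gcd n (q + 1) * (q + 1) ^ 2) ≤ 63 * q ^ 3) := by
  rcases h3 with h3 | h3
  · left
    refine ⟨h3, ?_⟩
    subst h3
    rcases h.gcd_cases with h1 | ⟨h1, h2⟩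
    · rw [h1]; norm_num
    · have := h.h7; omega
  · right
    refine ⟨h3, ?_⟩
    rcases h.gcd_cases with h1 | ⟨h1, h2⟩
    · rw [h1]
      obtain ⟨t, rfl⟩ : ∃ t, q = t + 5 := ⟨q - 5, by omega⟩
      nlinarith [Nat.zero_le t, Nat.zero_le (t * t), Nat.zero_le (t * t * t)]
    · have h4 := h.h7
      rw [h1]
      obtain ⟨t, rfl⟩ : ∃ t, q = t + 13 := ⟨q - 13, by omega⟩
      have h5 : 100 * (n * (t + 13 + 1) ^ 2) ≤ 50 * (t + 13 + 1) ^ 3 := by
        calc 100 * (n * (t + 13 + 1) ^ 2) = 50 * ((2 * n) * (t + 13 + 1) ^ 2) := by ring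
          _ ≤ 50 * ((t + 13 + 1) * (t + 13 + 1) ^ 2) := Nat.mul_le_mul_left _ (Nat.mul_le_mul_right _ h2)
          _ = _ := by ring
      refine h5.trans ?_
      nlinarith [Nat.zero_le t, Nat.zero_le (t * t), Nat.zero_le (t * t * t)]

theorem q35 : q = 3 ∨ 5 ≤ q := by
  have h1 := h.q3
  rcases h.hodd with ⟨k, hk⟩
  omega

end Num

/-- the product of two factors -/
theorem ua_mul {a b : ℕ} (hq : 1 ≤ q) (ha : Even a) (hb : Odd b) :
    ((ua q a * ua q b : ℕ) : ℤ) = (q : ℤ) ^ (a + b) + (q : ℤ) ^ a - (q : ℤ) ^ b - 1 := by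
  rw [ua_even hq ha, ua_odd hb]
  have h1 : 1 ≤ q ^ a := Nat.one_le_pow _ _ hq
  push_cast [h1]
  ring

/-- the third case with the parities -/
theorem two_orbit (h : Num p q n) {E a b : ℕ} (ha : 1 ≤ a) (hb : 1 ≤ b) (hab : a + b = n)
    (hd : E * (Nat.gcd n (q + 1) * (q + 1)) ∣ ua q a * ua q b) :
    ∃ a b k : ℕ, Even a ∧ Odd b ∧ 2 ≤ a ∧ 1 ≤ b ∧ a + b = n ∧ 1 ≤ k ∧
      (k : ℤ) * ((Nat.gcd n (q + 1) * (q + 1) : ℕ) * (E : ℤ)) = (q : ℤ) ^ n + (q : ℤ) ^ a - (q : ℤ) ^ b - 1 := by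
  have hq1 : 1 ≤ q := by have := h.q3; omega
  have key : ∀ a b : ℕ, 1 ≤ a → 1 ≤ b → a + b = n → Even a → E * (Nat.gcd n (q + 1) * (q + 1)) ∣ ua q a * ua q b →
      ∃ a b k : ℕ, Even a ∧ Odd b ∧ 2 ≤ a ∧ 1 ≤ b ∧ a + b = n ∧ 1 ≤ k ∧
        (k : ℤ) * ((Nat.gcd n (q + 1) * (q + 1) : ℕ) * (E : ℤ)) = (q : ℤ) ^ n + (q : ℤ) ^ a - (q : ℤ) ^ b - 1 := by
    intro a b ha hb hab hae hd
    have hbo : Odd b := by
      have := h.nodd
      rw [← hab] at this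
      by_contra hcon
      rw [Nat.not_odd_iff_even] at hcon
      exact absurd (hae.add hcon) (by rw [Nat.not_even_iff_odd]; exact this)
    obtain ⟨k, hk⟩ := hd
    have h2 : 2 ≤ a := by
      rcases hae with ⟨t, ht⟩
      omega
    have hpos : 0 < ua q a * ua q b := Nat.mul_pos (ua_pos (by have := h.q3; omega) ha) (ua_pos (by have := h.q3; omega) hb)
    have hk1 : 1 ≤ k := by
      rcases Nat.eq_zero_or_pos k with h0 | h0
      · rw [h0, mul_zero] at hk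
        omega
      · exact h0
    refine ⟨a, b, k, hae, hbo, h2, hb, hab, hk1, ?_⟩
    have h3 := ua_mul hq1 hae hbo
    rw [hab] at h3
    rw [← h3, hk]
    push_cast
    ring
  rcases Nat.even_or_odd a with hae | hao
  · exact key a b ha hb hab hae hd
  · have hbe : Even b := by
      have := h.nodd
      rw [← hab] at this
      by_contra hcon
      rw [Nat.not_even_iff_odd] at hcon
      exact absurd (hao.add_odd hcon) (by rw [Nat.not_even_iff_odd]; exact this)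
    exact key b a hb ha (by omega) hbe (by rwa [mul_comm (ua q b)])

end Cfsg.Agent.H437.Win
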